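import Mathlib.GroupTheory.Coset.Card
import Mathlib.GroupTheory.Perm.Basic
import Mathlib.Data.Fintype.Perm
import Mathlib.Data.Nat.Factorial.Basic
import Mathlib.Data.Finite.Perm
import Mathlib.Data.Finite.Card
import Mathlib.SetTheory.Cardinal.Finite
import Mathlib.GroupTheory.Perm.Finite

/-!
An isomorphism between two subgroups of a finite group becomes conjugation in the symmetric group
on its underlying set.
-/

set_option autoImplicit false

namespace Cfsg.Agent.FusionGraph

universe u

variable {S : Type u} [Group S] [Finite S]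

theorem exists_right_equivariant {Q R : Subgroup S} (φ : ↥Q ≃* ↥R) :
    ∃ τ : S → S, Function.Injective τ ∧ ∀ (x : S) (q : Q), τ (x * q) = τ x * (φ q : S) := by
  classical
  have hQR : Nat.card (S ⧸ Q) = Nat.card (S ⧸ R) := by
    have h1 := Subgroup.card_eq_card_quotient_mul_card_subgroup Q
    have h2 := Subgroup.card_eq_card_quotient_mul_card_subgroup R
    rw [Nat.card_congr φ.toEquiv] at h1
    exact Nat.eq_of_mul_eq_mul_right Nat.card_pos (h1.symm.trans h2)
  obtain ⟨f⟩ : Nonempty ((S ⧸ Q) ≃ (S ⧸ R)) :=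
    Finite.card_eq.1 hQR
  have hout : ∀ x : S, (Quotient.out (QuotientGroup.mk x : S ⧸ Q))⁻¹ * x ∈ Q := fun x =>
    QuotientGroup.eq.1 (QuotientGroup.out_eq' _)
  refine ⟨fun x => Quotient.out (f (QuotientGroup.mk x)) * (φ ⟨_, hout x⟩ : S), ?_, ?_⟩
  · intro x y h
    have h1 := congrArg (fun z : S => (QuotientGroup.mk z : S ⧸ R)) h
    simp only [QuotientGroup.mk_mul_of_mem, SetLike.coe_mem, QuotientGroup.out_eq'] at h1
    have hxy := f.injective h1
    simp only [hxy] at h
    have h2 := φ.injective (Subtype.ext (mul_left_cancel h))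
    exact mul_left_cancel (congrArg Subtype.val h2)
  · intro x q
    have hmk : (QuotientGroup.mk (x * q) : S ⧸ Q) = QuotientGroup.mk x :=
      QuotientGroup.mk_mul_of_mem _ q.2
    have h : (⟨_, hout (x * q)⟩ : Q) = ⟨_, hout x⟩ * q := by
      apply Subtype.ext
      show (Quotient.out (QuotientGroup.mk (x * q) : S ⧸ Q))⁻¹ * (x * q) = _
      rw [hmk, Subgroup.coe_mul, mul_assoc]
    simp only [hmk]
    rw [mul_assoc, ← Subgroup.coe_mul, ← map_mul]
    congr 3
    exact Subtype.ext (mul_assoc _ _ _).symm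

/-- The left regular action. -/
def lreg (S : Type u) [Group S] : S →* Equiv.Perm S where
  toFun s := Equiv.mulLeft s
  map_one' := Equiv.ext fun x => one_mul x
  map_mul' a b := Equiv.ext fun x => mul_assoc a b x

omit [Finite S] in
theorem lreg_injective : Function.Injective (lreg S) := fun a b h => by
  have := Equiv.congr_fun h 1
  simpa [lreg] using this

/-- A permutation conjugating the regular images as `φ` prescribes. -/
theorem exists_conj_lreg {Q R : Subgroup S} (φ : ↥Q ≃* ↥R) :
    ∃ σ : Equiv.Perm S, ∀ q : Q, σ * lreg S q = lreg S (φ q) * σ := by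
  obtain ⟨τ, hτ, hτe⟩ := exists_right_equivariant φ
  let σ₀ : S → S := fun x => (τ x⁻¹)⁻¹
  have hσ : Function.Bijective σ₀ := by
    refine Finite.injective_iff_bijective.1 fun x y h => ?_
    exact inv_injective (hτ (inv_injective h))
  refine ⟨Equiv.ofBijective σ₀ hσ, fun q => Equiv.ext fun x => ?_⟩
  show (τ ((q : S) * x)⁻¹)⁻¹ = (φ q : S) * (τ x⁻¹)⁻¹
  have h := hτe x⁻¹ q⁻¹
  rw [map_inv, Subgroup.coe_inv, Subgroup.coe_inv] at h
  rw [mul_inv_rev, h, mul_inv_rev, inv_inv]

theorem card_perm_eq (S : Type u) [Finite S] : Nat.card (Equiv.Perm S) = (Nat.card S).factorial :=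
  Nat.card_perm

end Cfsg.Agent.FusionGraph
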