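import Mathlib.GroupTheory.FreeGroup.Reduce

/-!
Distances and midpoints in the tree of reduced words.
-/

set_option autoImplicit false

namespace Cfsg.Agent.FusionGraph

universe u

variable {α : Type u} [DecidableEq α]

open FreeGroup

theorem isReduced_append_invRev : ∀ (a b : List (α × Bool)), IsReduced a → IsReduced b →
    a.head? ≠ b.head? → IsReduced (invRev a ++ b)
  | [], b, _, hb, _ => by simpa using hb
  | a :: a', [], ha, _, _ => by
    simp only [List.append_nil]
    have h := isReduced_toWord (x := (mk (a :: a'))⁻¹)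
    rwa [toWord_inv, toWord_mk, ha.reduce_eq] at h
  | (x, c) :: a', (y, d) :: b', ha, hb, hne => by
    have h1 : IsReduced (invRev ((x, c) :: a')) := by
      have h := isReduced_toWord (x := (mk ((x, c) :: a'))⁻¹)
      rwa [toWord_inv, toWord_mk, ha.reduce_eq] at h
    have h2 : invRev ((x, c) :: a') = invRev a' ++ [(x, !c)] := by simp [invRev]
    rw [h2] at h1 ⊢
    have h3 : IsReduced ([(x, !c)] ++ (y, d) :: b') := by
      rw [List.singleton_append, isReduced_cons_cons]
      refine ⟨?_, hb⟩
      intro hxy
      have hxy : x = y := hxy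
      subst hxy
      simp only [List.head?_cons, ne_eq, Option.some.injEq, Prod.mk.injEq, true_and] at hne
      show (!c) = d
      cases c <;> cases d <;> simp_all
    rw [List.append_assoc]
    simpa [List.append_assoc] using IsReduced.append_overlap h1 h3 (List.cons_ne_nil _ _)

theorem exists_common_prefix : ∀ (a b : List (α × Bool)), IsReduced a → IsReduced b →
    ∃ k, k ≤ a.length ∧ k ≤ b.length ∧ a.take k = b.take k ∧
      norm ((mk a)⁻¹ * mk b) + 2 * k = a.length + b.length
  | [], b, _, hb => ⟨0, le_rfl, Nat.zero_le _, by simp, by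
      rw [show (mk ([] : List (α × Bool)))⁻¹ = 1 from inv_one]
      simp [norm, toWord_mk, hb.reduce_eq]⟩
  | a :: a', [], ha, _ => ⟨0, Nat.zero_le _, le_rfl, by simp, by
      rw [show mk ([] : List (α × Bool)) = 1 from rfl, mul_one, norm_inv_eq]
      simp [norm, toWord_mk, ha.reduce_eq]⟩
  | p :: a', q :: b', ha, hb => by
    by_cases h : p = q
    · subst h
      obtain ⟨k, hka, hkb, ht, hn⟩ := exists_common_prefix a' b' ha.tail hb.tail
      refine ⟨k + 1, by simpa using hka, by simpa using hkb, by simp [ht], ?_⟩
      rw [show mk (p :: a') = mk [p] * mk a' from rfl, show mk (p :: b') = mk [p] * mk b' from rfl,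
        mul_inv_rev, mul_assoc, inv_mul_cancel_left]
      simp only [List.length_cons]
      omega
    · refine ⟨0, Nat.zero_le _, Nat.zero_le _, by simp, ?_⟩
      have hr := isReduced_append_invRev _ _ ha hb (by simpa using h)
      rw [inv_mk, mul_mk, norm, toWord_mk, hr.reduce_eq]
      simp

theorem norm_inv_take_mul (a : List (α × Bool)) (k : ℕ) :
    norm ((mk (a.take k))⁻¹ * mk a) ≤ a.length - k := by
  conv_lhs => arg 1; arg 2; rw [← List.take_append_drop k a, ← mul_mk]
  rw [inv_mul_cancel_left]
  exact norm_mk_le.trans (List.length_drop.le)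

/-- The midpoint of a diameter is within half the diameter of every point. -/
theorem norm_midpoint {a b : FreeGroup α} {m : ℕ} (ha : norm a ≤ 2 * m) (hb : norm b = 2 * m)
    (hab : norm (a⁻¹ * b) ≤ 2 * m) : norm ((mk (b.toWord.take m))⁻¹ * a) ≤ m := by
  obtain ⟨k, hka, hkb, ht, hn⟩ := exists_common_prefix a.toWord b.toWord isReduced_toWord isReduced_toWord
  rw [mk_toWord, mk_toWord] at hn
  simp only [norm] at ha hb
  rw [show a.toWord.length = norm a from rfl] at hn hka
  simp only [norm] at hn hka hab
  by_cases hm : m ≤ k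
  · have h1 : b.toWord.take m = a.toWord.take m := by
      rw [← Nat.min_eq_left hm, ← List.take_take, ← ht, List.take_take]
    rw [h1]
    have h2 := norm_inv_take_mul a.toWord m
    rw [mk_toWord] at h2
    omega
  · have h1 : (mk (b.toWord.take m))⁻¹ * a =
        ((mk (b.toWord.take k))⁻¹ * mk (b.toWord.take m))⁻¹ * ((mk (a.toWord.take k))⁻¹ * a) := by
      rw [ht, mul_inv_rev, inv_inv, mul_assoc, mul_inv_cancel_left]
    rw [h1]
    refine (norm_mul_le _ _).trans ?_
    rw [norm_inv_eq]
    have h2 := norm_inv_take_mul (b.toWord.take m) k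
    rw [List.take_take, Nat.min_eq_left (Nat.le_of_not_le hm), List.length_take] at h2
    have h3 := norm_inv_take_mul a.toWord k
    rw [mk_toWord] at h3
    omega

/-- The midpoint of a segment is unique. -/
theorem eq_midpoint {c b : FreeGroup α} {m : ℕ} (hb : norm b = 2 * m) (hc : norm c ≤ m)
    (hcb : norm (c⁻¹ * b) ≤ m) : c = mk (b.toWord.take m) := by
  obtain ⟨k, hkc, hkb, ht, hn⟩ := exists_common_prefix c.toWord b.toWord isReduced_toWord isReduced_toWord
  rw [mk_toWord, mk_toWord] at hn
  simp only [norm] at hb hc hn hkc hcb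
  have hk : k = c.toWord.length := by omega
  have hk2 : k = m := by omega
  subst hk2
  rw [← ht, hk, List.take_length, mk_toWord]

/-- The exponent sum. -/
def expSum : FreeGroup α →* Multiplicative ℤ := FreeGroup.lift fun _ => Multiplicative.ofAdd 1

def signSum : List Bool → ℤ
  | [] => 0
  | b :: l => (if b then 1 else -1) + signSum l

omit [DecidableEq α] in
theorem expSum_mk : ∀ l : List (α × Bool),
    expSum (mk l) = Multiplicative.ofAdd (signSum (l.map Prod.snd))
  | [] => rfl
  | (x, b) :: l => by
    refine ((congrArg expSum (mul_mk (L₁ := [(x, b)]) (L₂ := l)).symm).trans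
      (map_mul expSum _ _)).trans ?_
    rw [expSum_mk l]
    cases b <;> simp [expSum, signSum] <;> rfl

theorem signSum_parity : ∀ l : List Bool, (2 : ℤ) ∣ signSum l - (l.length : ℤ)
  | [] => by simp [signSum]
  | b :: l => by
    have h := signSum_parity l
    cases b <;> simp [signSum] <;> omega

end Cfsg.Agent.FusionGraph
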