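import Cfsg.Agent.FusionGraph.Wreath
import Cfsg.Agent.FusionGraph.Tree
import Mathlib.GroupTheory.FreeGroup.NielsenSchreier
import Mathlib.GroupTheory.OrderOfElement
import Mathlib.GroupTheory.Index
import Mathlib.Tactic.Group
import Mathlib.Data.Fintype.Lattice

/-!
The group of a graph of groups has a free subgroup of finite index, its finite subgroups are
conjugate into the vertex group, and conjugations between subgroups of the vertex group are words
in the edge maps.
-/

set_option autoImplicit false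

namespace Cfsg.Agent.FusionGraph.GData

universe u

variable {S : Type u} [Group S] (D : GData S)

/-- The vertex group inside the group. -/
def emb : S →* ↥D.grp := D.io.codRestrict D.grp D.io_mem

theorem emb_injective : Function.Injective D.emb := fun _ _ h =>
  D.io_injective (congrArg Subtype.val h)

/-- The projection to the permutations. -/
def proj : ↥D.grp →* D.P := (SemidirectProduct.rightHom (φ := D.shift)).comp D.grp.subtype

theorem proj_apply (g : ↥D.grp) : D.proj g = (g : D.W).right := rfl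

/-- The path from `1`, on the kernel. -/
def kerPath : ↥D.proj.ker →* D.Fr where
  toFun g := (g : D.W).left 1
  map_one' := rfl
  map_mul' g h := by
    show ((g : D.W) * (h : D.W)).left 1 = _
    rw [mul_left_apply, show ((g : D.W)).right = 1 from g.2, mul_one]

theorem kerPath_injective : Function.Injective D.kerPath := by
  rw [injective_iff_map_eq_one]
  intro g hg
  obtain ⟨s, hs⟩ := D.mem_range_of_left_eq_one (g.1.2) (x := 1) hg
  have h : lreg S s = 1 := by
    rw [← D.io_right s, hs]
    exact g.2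
  have hs1 : s = 1 := lreg_injective (h.trans (map_one _).symm)
  subst hs1
  exact Subtype.ext (Subtype.ext (hs.symm.trans (map_one _)))

theorem isFreeGroup_ker : IsFreeGroup ↥D.proj.ker :=
  IsFreeGroup.ofMulEquiv (MonoidHom.ofInjective D.kerPath_injective).symm

theorem index_ker_dvd [Finite S] : D.proj.ker.index ∣ (Nat.card S).factorial := by
  rw [Subgroup.index_ker, ← card_perm_eq]
  exact Subgroup.card_subgroup_dvd_card _

/-! ### Lengths -/

open Classical in
/-- The length of an element. -/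
noncomputable def len (g : D.W) : ℕ := FreeGroup.norm (g.left 1)

theorem norm_left [DecidableEq D.E] {g : D.W} (hg : g ∈ D.grp) (x : D.P) :
    FreeGroup.norm (g.left x) = FreeGroup.norm (g.left 1) := by
  obtain ⟨l, s, hl, rfl⟩ := D.exists_word hg
  rw [FreeGroup.norm, FreeGroup.norm, D.toWord_word hl, D.toWord_word hl, labs_length, labs_length]

theorem labs_snd : ∀ (l : List (S × D.Tok)) (x : D.P),
    (D.labs l x).map Prod.snd = l.map fun a => a.2.2
  | [], _ => rfl
  | (a, k) :: l, x => by simp [labs, lab_snd, labs_snd l]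

theorem expSum_left {g : D.W} (hg : g ∈ D.grp) (x y : D.P) :
    expSum (g.left x) = expSum (g.left y) := by
  obtain ⟨l, s, -, rfl⟩ := D.exists_word hg
  rw [word_left, word_left, expSum_mk, expSum_mk, labs_snd, labs_snd]

/-- The exponent sum of an element. -/
def expHom : ↥D.grp →* Multiplicative ℤ where
  toFun g := expSum ((g : D.W).left 1)
  map_one' := map_one expSum
  map_mul' g h := by
    show expSum (((g : D.W) * (h : D.W)).left 1) = _
    rw [mul_left_apply, map_mul, D.expSum_left h.2]

theorem even_norm [DecidableEq D.E] {g : ↥D.grp} (hg : IsOfFinOrder g) :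
    2 ∣ FreeGroup.norm ((g : D.W).left 1) := by
  have h1 : D.expHom g = 1 := (D.expHom.isOfFinOrder hg).eq_one'
  obtain ⟨l, s, hl, he⟩ := D.exists_word g.2
  change expSum ((g : D.W).left 1) = 1 at h1
  rw [← he, word_left, expSum_mk] at h1
  have h2 : signSum ((D.labs l 1).map Prod.snd) = 0 := Multiplicative.ofAdd.injective h1
  have h3 := signSum_parity ((D.labs l 1).map Prod.snd)
  rw [h2, List.length_map, zero_sub, dvd_neg] at h3
  rw [FreeGroup.norm, ← he, D.toWord_word hl]
  exact_mod_cast h3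

theorem norm_dist [DecidableEq D.E] (g h : ↥D.grp) :
    FreeGroup.norm (((g⁻¹ * h : ↥D.grp) : D.W).left 1) =
      FreeGroup.norm (((g : D.W).left 1)⁻¹ * (h : D.W).left 1) := by
  have h1 : (h : D.W).left 1 =
      (g : D.W).left 1 * ((g⁻¹ * h : ↥D.grp) : D.W).left (1 * (g : D.W).right) := by
    rw [← D.mul_left_apply]
    show _ = ((g * (g⁻¹ * h) : ↥D.grp) : D.W).left 1
    rw [mul_inv_cancel_left]
  rw [h1, inv_mul_cancel_left]
  exact (D.norm_left (g⁻¹ * h).2 _).symm

theorem word_append : ∀ (l l' : List (S × D.Tok)) (s : S),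
    D.word (l ++ l') s = D.word l 1 * D.word l' s
  | [], l', s => by simp [word]
  | (a, k) :: l, l', s => by simp [word, word_append l l' s, mul_assoc]

theorem labs_take : ∀ (m : ℕ) (l : List (S × D.Tok)) (x : D.P),
    D.labs (l.take m) x = (D.labs l x).take m
  | 0, l, x => by simp [labs]
  | m + 1, [], x => by simp [labs]
  | m + 1, (a, k) :: l, x => by simp [labs, labs_take m l]

/-- A finite subgroup fixes a vertex. -/
theorem exists_conj_mem_range (H : Subgroup ↥D.grp) (hH : Finite H) :
    ∃ g : ↥D.grp, ∀ h ∈ H, g * h * g⁻¹ ∈ D.emb.range := by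
  classical
  haveI := hH
  obtain ⟨⟨h₀, hh₀⟩, hmax⟩ := Finite.exists_max
    fun h : H => FreeGroup.norm (((h : ↥D.grp) : D.W).left 1)
  have hfin : IsOfFinOrder h₀ :=
    H.subtype.isOfFinOrder (isOfFinOrder_of_finite (⟨h₀, hh₀⟩ : H))
  obtain ⟨m, hm⟩ := D.even_norm hfin
  obtain ⟨l, s, hl, he⟩ := D.exists_word h₀.2
  set u : ↥D.grp := ⟨D.word (l.take m) 1, D.word_mem _ _⟩
  have hu : (u : D.W).left 1 = FreeGroup.mk (((h₀ : D.W).left 1).toWord.take m) := by
    show (D.word (l.take m) 1).left 1 = _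
    rw [word_left, labs_take, ← he, D.toWord_word hl]
  have hle : ∀ h ∈ H, FreeGroup.norm (((h : ↥D.grp) : D.W).left 1) ≤ 2 * m := fun h hh =>
    (hmax ⟨h, hh⟩).trans hm.le
  have hdist : ∀ h ∈ H, FreeGroup.norm (((u⁻¹ * h : ↥D.grp) : D.W).left 1) ≤ m := by
    intro h hh
    rw [D.norm_dist, hu]
    refine norm_midpoint (hle h hh) hm ?_
    rw [← D.norm_dist]
    exact hle _ (H.mul_mem (H.inv_mem hh) hh₀)
  refine ⟨u⁻¹, fun h hh => ?_⟩
  rw [inv_inv]
  have h1 : FreeGroup.norm (((h * u : ↥D.grp) : D.W).left 1) ≤ m := by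
    have h2 := hdist _ (H.inv_mem hh)
    have h4 := D.norm_dist (u⁻¹ * h⁻¹) 1
    rw [mul_one, mul_inv_rev, inv_inv, inv_inv] at h4
    rw [h4, show (((1 : ↥D.grp) : D.W).left 1 : D.Fr) = 1 from rfl, mul_one, FreeGroup.norm_inv_eq]
    exact h2
  have h3 : FreeGroup.norm ((((h * u : ↥D.grp) : D.W).left 1)⁻¹ * (h₀ : D.W).left 1) ≤ m := by
    rw [← D.norm_dist, show (h * u)⁻¹ * h₀ = u⁻¹ * (h⁻¹ * h₀) by group]
    exact hdist _ (H.mul_mem (H.inv_mem hh) hh₀)
  have h4 := eq_midpoint hm h1 h3
  rw [← hu] at h4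
  have h5 : ((u⁻¹ * (h * u) : ↥D.grp) : D.W).left 1 = 1 := by
    have := D.norm_dist u (h * u)
    rw [h4, inv_mul_cancel, FreeGroup.norm_one, FreeGroup.norm_eq_zero] at this
    exact this
  obtain ⟨c, hc⟩ := D.mem_range_of_left_eq_one (u⁻¹ * (h * u)).2 h5
  refine ⟨c, ?_⟩
  rw [mul_assoc]
  exact Subtype.ext hc

/-- Conjugations between subgroups of `S` by words are composites of edge maps and conjugations. -/
theorem fusion_induction {T : Type*} (C : (T → S) → Prop)
    (hbase : ∀ (s : S) (f : T → S), ∀ f' : T → S, C f → (∀ x, f' x = s * f x * s⁻¹) → C f')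
    (hedge : ∀ (k : D.Tok) (f : T → S) (hf : ∀ x, f x ∈ D.Dm k), C f →
      C fun x => D.dmap k ⟨f x, hf x⟩)
    (ι : T → S) (hι : C ι) :
    ∀ (l : List (S × D.Tok)), D.RedW l → ∀ (s : S) (f : T → S),
      (∀ x, D.io (f x) * D.word l s = D.word l s * D.io (ι x)) → C f := by
  classical
  intro l
  induction l with
  | nil =>
    intro _ s f hf
    refine hbase s ι f hι fun x => ?_
    have h := hf x
    rw [word, ← map_mul, ← map_mul] at h
    exact eq_mul_inv_of_mul_eq (D.io_injective h)
  | cons hd l ih =>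
    intro hred s f hf
    obtain ⟨a, i, b⟩ := hd
    have hmem : ∀ x, a⁻¹ * f x * a ∈ D.Dm (i, !b) := by
      intro x
      have h := congrArg (fun g : D.W => g.left 1) (hf x)
      simp only [mul_left_apply, io_left, Pi.one_apply, one_mul, mul_one, io_right] at h
      have h1 := congrArg FreeGroup.toWord h
      rw [D.toWord_word hred, D.toWord_word hred] at h1
      simp only [labs, one_mul, List.cons.injEq] at h1
      refine D.mem_of_lab_eq i b (lreg S a) _ ?_
      rw [← h1.1]
      congr 1
      simp [map_mul, mul_assoc]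
    set f₁ : T → S := fun x => D.dmap (i, !b) ⟨a⁻¹ * f x * a, hmem x⟩ with hf₁
    have hC : C f₁ := ih (D.redW_tail hred) s f₁ fun x => by
      have h := hf x
      simp only [word] at h
      have h2 := D.tv_conj (i, !b) ⟨a⁻¹ * f x * a, hmem x⟩
      rw [tv_flip] at h2
      refine mul_left_cancel (a := D.io a * D.tv (i, b)) ?_
      calc D.io a * D.tv (i, b) * (D.io (f₁ x) * D.word l s)
          = D.io a * (D.tv (i, b) * (D.io (f₁ x) * (D.tv (i, b))⁻¹)) * D.tv (i, b) * D.word l s := by
            simp only [mul_assoc, inv_mul_cancel_left]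
        _ = D.io a * D.io (a⁻¹ * f x * a) * D.tv (i, b) * D.word l s := by
            rw [hf₁, ← h2, mul_inv_cancel_left]
        _ = _ := by
            rw [← mul_assoc (D.io a * D.tv (i, b)), ← h]
            simp only [map_mul, map_inv, mul_assoc, mul_inv_cancel_left]
    have key : ∀ (k : S), ∀ hk : k ∈ D.Dm (i, !b), ∃ hk' : D.dmap (i, !b) ⟨k, hk⟩ ∈ D.Dm (i, b),
        D.dmap (i, b) ⟨_, hk'⟩ = k := by
      intro k hk
      cases b
      · refine ⟨(D.φ i ⟨k, hk⟩).2, ?_⟩
        show (((D.φ i).symm (D.φ i ⟨k, hk⟩)) : S) = k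
        rw [MulEquiv.symm_apply_apply]
      · refine ⟨((D.φ i).symm ⟨k, hk⟩).2, ?_⟩
        show ((D.φ i ((D.φ i).symm ⟨k, hk⟩)) : S) = k
        rw [MulEquiv.apply_symm_apply]
    have hf₁mem : ∀ x, f₁ x ∈ D.Dm (i, b) := fun x => (key _ (hmem x)).1
    refine hbase a _ f (hedge (i, b) f₁ hf₁mem hC) fun x => ?_
    rw [show D.dmap (i, b) ⟨f₁ x, hf₁mem x⟩ = a⁻¹ * f x * a from (key _ (hmem x)).2]
    simp [mul_assoc]

end Cfsg.Agent.FusionGraph.GData
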