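import Cfsg.Agent.FusionGraph.Properties
import Cfsg.Agent.FusionSys.Basic
import Cfsg.Prelude.Def_FusionSystem

/-!
Every fusion system on a finite group is realized by the group of a graph of groups.
-/

set_option autoImplicit false

open Cfsg Cfsg.FusionSystem Cfsg.Agent.FusionSys

namespace Cfsg.Agent.FusionGraph

universe u

variable {Ω : Type u} [Group Ω] {S : Subgroup Ω} [Finite S]

/-- The morphisms of the system, as edges. -/
abbrev Edge (F : FusionSystem S) : Type u := {a : Σ P : Subgroup Ω, P →* Ω // a.2 ∈ F.Hom a.1}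

noncomputable def edgeIso (F : FusionSystem S) (a : Edge F) :
    ↥(a.1.1.subgroupOf S) ≃* ↥(a.1.2.range.subgroupOf S) :=
  ((Subgroup.subgroupOfEquivOfLe (le_S F a.2)).trans (toIso F a.2 rfl)).trans
    (Subgroup.subgroupOfEquivOfLe (range_le_S F a.2)).symm

theorem edgeIso_coe (F : FusionSystem S) (a : Edge F) (x : ↥(a.1.1.subgroupOf S)) :
    (((edgeIso F a x : ↥(a.1.2.range.subgroupOf S)) : S) : Ω) = a.1.2 ⟨((x : S) : Ω), x.2⟩ := rfl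

noncomputable def gdata (F : FusionSystem S) : GData ↥S where
  I := Edge F
  Q a := a.1.1.subgroupOf S
  R a := a.1.2.range.subgroupOf S
  φ := edgeIso F
  σ a := (exists_conj_lreg (edgeIso F a)).choose
  conj a := (exists_conj_lreg (edgeIso F a)).choose_spec

theorem dmap_carried (F : FusionSystem S) : ∀ (k : (gdata F).Tok), ∃ (A : Subgroup Ω) (ψ : A →* Ω),
    ψ ∈ F.Hom A ∧ ∀ x : (gdata F).Dm k, ∃ h : ((x : S) : Ω) ∈ A,
      (((gdata F).dmap k x : S) : Ω) = ψ ⟨_, h⟩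
  | (⟨⟨P, φ⟩, hφ⟩, true) => ⟨P, φ, hφ, fun x => ⟨x.2, rfl⟩⟩
  | (⟨⟨P, φ⟩, hφ⟩, false) => by
    obtain ⟨ψ, hψ, hψφ⟩ := F.inv_mem hφ
    refine ⟨φ.range, ψ, hψ, fun x => ⟨x.2, ?_⟩⟩
    obtain ⟨⟨y, hy⟩, rfl⟩ := (edgeIso F ⟨⟨P, φ⟩, hφ⟩).surjective x
    show ((((edgeIso F ⟨⟨P, φ⟩, hφ⟩).symm (edgeIso F ⟨⟨P, φ⟩, hφ⟩ ⟨y, hy⟩)) : S) : Ω) =
      ψ ⟨φ ⟨(y : Ω), hy⟩, _⟩
    rw [MulEquiv.symm_apply_apply]
    exact (hψφ ⟨(y : Ω), hy⟩).symm

theorem realized (F : FusionSystem S) : F.IsRealizedBy (gdata F).emb := by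
  refine ⟨GData.emb_injective _, fun P hP φ hφS => ⟨fun hφ => ?_, ?_⟩⟩
  · refine ⟨⟨(gdata F).tv (⟨⟨P, φ⟩, hφ⟩, true), GData.tv_mem _ _⟩, fun x => Subtype.ext ?_⟩
    have h := (gdata F).tv_conj (⟨⟨P, φ⟩, hφ⟩, true) ⟨⟨(x : Ω), hP x.2⟩, x.2⟩
    show (gdata F).io _ = (gdata F).tv _ * (gdata F).io _ * ((gdata F).tv _)⁻¹
    rw [h, mul_inv_cancel_right]
    exact congrArg (gdata F).io (Subtype.ext (edgeIso_coe F ⟨⟨P, φ⟩, hφ⟩ ⟨⟨x, hP x.2⟩, x.2⟩).symm)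
  · rintro ⟨g, hg⟩
    obtain ⟨l, s, hl, he⟩ := (gdata F).exists_word g.2
    let C : (P → ↥S) → Prop := fun f => ∃ χ ∈ F.Hom P, ∀ x : P, χ x = (f x : Ω)
    have h := (gdata F).fusion_induction (T := ↥P) C ?_ ?_ (fun x => ⟨x, hP x.2⟩)
      ⟨P.subtype, subtype_mem F hP, fun x => rfl⟩ l hl s (fun x => ⟨φ x, hφS x⟩) ?_
    · obtain ⟨χ, hχ, hχe⟩ := h
      exact mem_hom_congr F hχ fun x => (hχe x).symm
    · rintro c f f' ⟨χ, hχ, hχe⟩ hf'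
      have hmem : ∀ x : P, χ x ∈ S := map_mem_S F hχ
      refine ⟨(conjHom S (c : Ω)).comp (χ.codRestrict S hmem),
        F.comp_mem hχ (F.conj_mem le_rfl c.2) hmem, fun x => ?_⟩
      show (c : Ω) * χ x * (c : Ω)⁻¹ = _
      rw [hχe, hf']
      rfl
    · rintro k f hf ⟨χ, hχ, hχe⟩
      obtain ⟨A, ψ, hψ, hψe⟩ := dmap_carried F k
      have hmem : ∀ x : P, χ x ∈ A := fun x => hχe x ▸ (hψe ⟨f x, hf x⟩).1
      refine ⟨ψ.comp (χ.codRestrict A hmem), F.comp_mem hχ hψ hmem, fun x => ?_⟩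
      rw [(hψe ⟨f x, hf x⟩).2]
      exact congrArg ψ (Subtype.ext (hχe x))
    · intro x
      rw [he]
      have h1 := congrArg Subtype.val (hg x)
      exact (eq_mul_inv_iff_mul_eq.1 h1 :)

theorem exists_group (F : FusionSystem S) :
    ∃ (G : Type u) (_ : Group G) (ι : ↥S →* G), F.IsRealizedBy ι ∧
      (∀ H : Subgroup G, Finite ↥H → ∃ g : G, ∀ h ∈ H, g * h * g⁻¹ ∈ ι.range) ∧
      ∃ N : Subgroup G, N.Normal ∧ IsFreeGroup ↥N ∧ N.index ∣ (Nat.card ↥S).factorial :=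
  ⟨(gdata F).grp, inferInstance, (gdata F).emb, realized F, GData.exists_conj_mem_range _,
    (gdata F).proj.ker, inferInstance, GData.isFreeGroup_ker _, GData.index_ker_dvd _⟩

end Cfsg.Agent.FusionGraph
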