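import Cfsg.Agent.FusionGraph.Perm
import Mathlib.GroupTheory.SemidirectProduct
import Mathlib.GroupTheory.FreeGroup.Reduce

/-!
The fundamental group of a one-vertex graph of finite groups, realized inside a wreath product of a
free group and a symmetric group.
-/

set_option autoImplicit false

namespace Cfsg.Agent.FusionGraph

universe u

/-- A family of isomorphisms between subgroups of `S`, each realized by a permutation. -/
structure GData (S : Type u) [Group S] where
  I : Type u
  Q : I → Subgroup S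
  R : I → Subgroup S
  φ : ∀ i, ↥(Q i) ≃* ↥(R i)
  σ : I → Equiv.Perm S
  conj : ∀ i (q : Q i), σ i * lreg S q = lreg S (φ i q) * σ i

namespace GData

variable {S : Type u} [Group S] (D : GData S)

abbrev P (_D : GData S) : Type u := Equiv.Perm S

abbrev RS (i : D.I) : Subgroup D.P := (D.R i).map (lreg S)

/-- The edges of the covering graph. -/
abbrev E : Type u := Σ i : D.I, D.P ⧸ D.RS i

abbrev Fr : Type u := FreeGroup D.E

def shift : D.P →* MulAut (D.P → D.Fr) where
  toFun g :=
    { toFun := fun f x => f (x * g)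
      invFun := fun f x => f (x * g⁻¹)
      left_inv := fun f => by funext x; simp
      right_inv := fun f => by funext x; simp
      map_mul' := fun _ _ => rfl }
  map_one' := by ext f x; simp
  map_mul' a b := by ext f x; simp [mul_assoc]

theorem shift_apply (g : D.P) (f : D.P → D.Fr) (x : D.P) : D.shift g f x = f (x * g) := rfl

abbrev W : Type u := (D.P → D.Fr) ⋊[D.shift] D.P

/-- The copy of `S`. -/
def io : S →* D.W := SemidirectProduct.inr.comp (lreg S)

theorem io_right (s : S) : (D.io s).right = lreg S s := rfl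

theorem io_left (s : S) : (D.io s).left = 1 := rfl

theorem io_injective : Function.Injective D.io := fun _ _ h =>
  lreg_injective (congrArg SemidirectProduct.right h)

theorem mul_left_apply (g h : D.W) (x : D.P) : (g * h).left x = g.left x * h.left (x * g.right) := by
  rw [SemidirectProduct.mul_left]; rfl

/-- The stable letters. -/
def t (i : D.I) : D.W := ⟨fun x => FreeGroup.of ⟨i, QuotientGroup.mk x⟩, D.σ i⟩

theorem t_io (i : D.I) (q : D.Q i) : D.t i * D.io q = D.io (D.φ i q) * D.t i := by
  apply SemidirectProduct.ext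
  · funext x
    rw [mul_left_apply, mul_left_apply, io_left, io_left, Pi.one_apply, Pi.one_apply, mul_one, one_mul]
    show FreeGroup.of _ = FreeGroup.of _
    congr 1
    refine Sigma.ext rfl (heq_of_eq ?_)
    exact (QuotientGroup.mk_mul_of_mem x (Subgroup.mem_map_of_mem _ (D.φ i q).2)).symm
  · exact D.conj i q

abbrev Tok : Type u := D.I × Bool

def tv (k : D.Tok) : D.W := if k.2 then D.t k.1 else (D.t k.1)⁻¹

def tperm (k : D.Tok) : D.P := (D.tv k).right

def lab (k : D.Tok) (x : D.P) : D.E × Bool :=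
  if k.2 then (⟨k.1, QuotientGroup.mk x⟩, true) else (⟨k.1, QuotientGroup.mk (x * (D.σ k.1)⁻¹)⟩, false)

theorem tv_left (k : D.Tok) (x : D.P) : (D.tv k).left x = FreeGroup.mk [D.lab k x] := by
  obtain ⟨i, b⟩ := k
  cases b
  · show ((D.t i)⁻¹).left x = _
    rw [SemidirectProduct.inv_left, shift_apply, Pi.inv_apply]
    rfl
  · rfl

/-- The value of a word. -/
def word : List (S × D.Tok) → S → D.W
  | [], s => D.io s
  | (a, k) :: l, s => D.io a * D.tv k * word l s

/-- The labels of the path of a word starting at `x`. -/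
def labs : List (S × D.Tok) → D.P → List (D.E × Bool)
  | [], _ => []
  | (a, k) :: l, x => D.lab k (x * lreg S a) :: labs l (x * lreg S a * D.tperm k)

theorem labs_length : ∀ (l : List (S × D.Tok)) (x : D.P), (D.labs l x).length = l.length
  | [], _ => rfl
  | (a, k) :: l, x => by simp [labs, labs_length l]

theorem word_left : ∀ (l : List (S × D.Tok)) (s : S) (x : D.P),
    (D.word l s).left x = FreeGroup.mk (D.labs l x)
  | [], s, x => rfl
  | (a, k) :: l, s, x => by
    rw [word, mul_left_apply, word_left l s, mul_left_apply, io_left, Pi.one_apply, one_mul,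
      tv_left, FreeGroup.mul_mk, SemidirectProduct.mul_right, io_right]
    simp [labs, mul_assoc, tperm]

/-- Multiplication of a word by an element of `S` on the left. -/
def pre : S → List (S × D.Tok) → S → List (S × D.Tok) × S
  | c, [], s => ([], c * s)
  | c, (a, k) :: l, s => ((c * a, k) :: l, s)

theorem word_pre (c : S) (l : List (S × D.Tok)) (s : S) :
    D.word (D.pre c l s).1 (D.pre c l s).2 = D.io c * D.word l s := by
  cases l with
  | nil => exact map_mul _ _ _
  | cons h l => obtain ⟨a, k⟩ := h; simp [pre, word, map_mul, mul_assoc]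

theorem labs_pre (c : S) (l : List (S × D.Tok)) (s : S) (x : D.P) :
    D.labs (D.pre c l s).1 x = D.labs l (x * lreg S c) := by
  cases l with
  | nil => rfl
  | cons h l => obtain ⟨a, k⟩ := h; simp [pre, labs, map_mul, mul_assoc]

/-- The subgroup carried by `tv (i, b)` on conjugation. -/
def Dm : D.Tok → Subgroup S
  | (i, true) => D.Q i
  | (i, false) => D.R i

def dmap : ∀ k : D.Tok, ↥(D.Dm k) →* S
  | (i, true) => (D.R i).subtype.comp (D.φ i).toMonoidHom
  | (i, false) => (D.Q i).subtype.comp (D.φ i).symm.toMonoidHom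

theorem tv_conj : ∀ (k : D.Tok) (a : D.Dm k),
    D.tv k * D.io (a : S) = D.io (D.dmap k a) * D.tv k
  | (i, true), a => D.t_io i a
  | (i, false), a => by
    show (D.t i)⁻¹ * D.io (a : S) = D.io ((D.φ i).symm a : S) * (D.t i)⁻¹
    rw [eq_mul_inv_iff_mul_eq, mul_assoc, inv_mul_eq_iff_eq_mul]
    have h := D.t_io i ((D.φ i).symm a)
    have e : D.φ i ((D.φ i).symm a) = a := (D.φ i).apply_symm_apply a
    rw [e] at h
    exact h.symm

theorem tv_flip (i : D.I) (b : Bool) : D.tv (i, !b) = (D.tv (i, b))⁻¹ := by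
  cases b <;> simp [tv]

theorem tv_cancel (i : D.I) (b : Bool) (a : D.Dm (i, b)) :
    D.tv (i, b) * D.io (a : S) * D.tv (i, !b) = D.io (D.dmap (i, b) a) := by
  rw [tv_conj, tv_flip, mul_inv_cancel_right]

theorem mem_of_lab_cancel (i : D.I) (b : Bool) (y : D.P) (a : S)
    (h : (D.lab (i, b) y).1 = (D.lab (i, !b) (y * D.tperm (i, b) * lreg S a)).1) :
    a ∈ D.Dm (i, b) := by
  cases b
  · simp only [lab, Bool.not_false, if_true, Bool.false_eq_true, if_false, tperm, tv, Sigma.mk.injEq,
      true_and, heq_eq_eq, QuotientGroup.eq, SemidirectProduct.inv_right] at h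
    obtain ⟨r, hr, he⟩ := h
    have : lreg S r = lreg S a := by
      rw [he]; simp [t, mul_assoc]
    exact lreg_injective this ▸ hr
  · simp only [lab, Bool.not_true, if_true, Bool.false_eq_true, if_false, tperm, tv, Sigma.mk.injEq,
      true_and, heq_eq_eq, QuotientGroup.eq] at h
    obtain ⟨r, hr, he⟩ := h
    have h2 := D.conj i ((D.φ i).symm ⟨r, hr⟩)
    rw [MulEquiv.apply_symm_apply] at h2
    have : lreg S ((D.φ i).symm ⟨r, hr⟩ : S) = lreg S a := by
      refine mul_left_cancel (a := D.σ i) ?_
      rw [h2]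
      simp only [t] at he
      rw [show ((⟨r, hr⟩ : D.R i) : S) = r from rfl, he]
      simp [mul_assoc]
    exact lreg_injective this ▸ ((D.φ i).symm ⟨r, hr⟩).2

theorem mem_of_lab_eq (i : D.I) (b : Bool) (y : D.P) (c : S)
    (h : D.lab (i, b) (y * lreg S c) = D.lab (i, b) y) : c ∈ D.Dm (i, !b) := by
  cases b
  · simp only [lab, Bool.false_eq_true, if_false, Prod.mk.injEq, and_true, Sigma.mk.injEq,
      true_and, heq_eq_eq, QuotientGroup.eq] at h
    obtain ⟨r, hr, he⟩ := h
    have h2 := D.conj i ((D.φ i).symm ⟨r, hr⟩)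
    rw [MulEquiv.apply_symm_apply, show ((⟨r, hr⟩ : D.R i) : S) = r from rfl, he] at h2
    have : lreg S ((D.φ i).symm ⟨r, hr⟩ : S)⁻¹ = lreg S c := by
      rw [map_inv, inv_eq_iff_eq_inv]
      refine mul_left_cancel (a := D.σ i) ?_
      rw [h2]
      simp [mul_assoc]
    exact lreg_injective this ▸ inv_mem ((D.φ i).symm ⟨r, hr⟩).2
  · simp only [lab, if_true, Prod.mk.injEq, and_true, Sigma.mk.injEq,
      true_and, heq_eq_eq, QuotientGroup.eq] at h
    obtain ⟨r, hr, he⟩ := h
    have : lreg S r⁻¹ = lreg S c := by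
      rw [map_inv, he]; simp
    exact lreg_injective this ▸ inv_mem hr

/-- A word all of whose paths are reduced. -/
def RedW (l : List (S × D.Tok)) : Prop := ∀ x, FreeGroup.IsReduced (D.labs l x)

theorem lab_snd (k : D.Tok) (x : D.P) : (D.lab k x).2 = k.2 := by
  obtain ⟨i, b⟩ := k; cases b <;> rfl

theorem lab_fst (k : D.Tok) (x : D.P) : (D.lab k x).1.1 = k.1 := by
  obtain ⟨i, b⟩ := k; cases b <;> rfl

theorem redW_tail {a : S} {k : D.Tok} {l : List (S × D.Tok)} (h : D.RedW ((a, k) :: l)) :
    D.RedW l := fun x => by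
  have h1 := h (x * (D.tperm k)⁻¹ * (lreg S a)⁻¹)
  simp only [labs, inv_mul_cancel_right] at h1
  exact List.IsChain.tail h1

theorem exists_red : ∀ (l : List (S × D.Tok)) (s : S),
    ∃ l' s', D.RedW l' ∧ D.word l' s' = D.word l s
  | [], s => ⟨[], s, fun _ => FreeGroup.IsReduced.nil, rfl⟩
  | (a, k) :: l, s => by
    obtain ⟨l', s', hr, he⟩ := exists_red l s
    by_cases h : D.RedW ((a, k) :: l')
    · exact ⟨_, s', h, by simp [word, he]⟩
    obtain ⟨x, hx⟩ := not_forall.1 h
    cases l' with
    | nil => exact absurd FreeGroup.IsReduced.singleton hx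
    | cons hd l'' =>
      obtain ⟨a₂, i₂, b₂⟩ := hd
      obtain ⟨i, b⟩ := k
      simp only [labs] at hx
      rw [FreeGroup.isReduced_cons_cons] at hx
      have h2 := hr (x * lreg S a * D.tperm (i, b))
      simp only [labs] at h2
      have h3 : (D.lab (i, b) (x * lreg S a)).1 =
          (D.lab (i₂, b₂) (x * lreg S a * D.tperm (i, b) * lreg S a₂)).1 ∧ b ≠ b₂ := by
        by_contra hh
        refine hx ⟨fun he => ?_, h2⟩
        rw [lab_snd, lab_snd]
        exact not_not.1 fun hb => hh ⟨he, hb⟩
      obtain ⟨h3, hb⟩ := h3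
      obtain rfl : b₂ = !b := by cases b <;> cases b₂ <;> simp_all
      obtain rfl : i = i₂ := by
        have := congrArg Sigma.fst h3
        rwa [lab_fst, lab_fst] at this
      have ha₂ := D.mem_of_lab_cancel i b _ _ h3
      refine ⟨_, _, fun y => ?_, (D.word_pre (a * D.dmap (i, b) ⟨a₂, ha₂⟩) l'' s').trans ?_⟩
      · rw [labs_pre]
        exact D.redW_tail hr _
      · simp only [word] at he ⊢
        rw [← he, map_mul, ← D.tv_cancel i b ⟨a₂, ha₂⟩]
        simp only [mul_assoc]

/-- The group generated by `S` and the stable letters. -/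
def grp : Subgroup D.W := Subgroup.closure (Set.range D.io ∪ Set.range D.tv)

theorem io_mem (s : S) : D.io s ∈ D.grp := Subgroup.subset_closure (Or.inl ⟨s, rfl⟩)

theorem tv_mem (k : D.Tok) : D.tv k ∈ D.grp := Subgroup.subset_closure (Or.inr ⟨k, rfl⟩)

theorem word_mem : ∀ (l : List (S × D.Tok)) (s : S), D.word l s ∈ D.grp
  | [], s => D.io_mem s
  | (a, k) :: l, s => D.grp.mul_mem (D.grp.mul_mem (D.io_mem a) (D.tv_mem k)) (word_mem l s)

theorem exists_word {g : D.W} (hg : g ∈ D.grp) : ∃ l s, D.RedW l ∧ D.word l s = g := by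
  suffices ∃ l s, D.word l s = g by
    obtain ⟨l, s, rfl⟩ := this
    exact D.exists_red l s
  induction hg using Subgroup.closure_induction_left with
  | one => exact ⟨[], 1, map_one _⟩
  | mul_left x hx y hy ih =>
    obtain ⟨l, s, rfl⟩ := ih
    rcases hx with ⟨c, rfl⟩ | ⟨k, rfl⟩
    · exact ⟨_, _, D.word_pre c l s⟩
    · exact ⟨(1, k) :: l, s, by simp [word]⟩
  | inv_mul_cancel x hx y hy ih =>
    obtain ⟨l, s, rfl⟩ := ih
    rcases hx with ⟨c, rfl⟩ | ⟨⟨i, b⟩, rfl⟩
    · exact ⟨_, _, (D.word_pre c⁻¹ l s).trans (by rw [map_inv])⟩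
    · exact ⟨(1, (i, !b)) :: l, s, by simp [word, tv_flip]⟩

theorem toWord_word [DecidableEq D.E] {l : List (S × D.Tok)} (hl : D.RedW l) (s : S) (x : D.P) :
    FreeGroup.toWord ((D.word l s).left x) = D.labs l x := by
  rw [word_left, FreeGroup.toWord_mk, (hl x).reduce_eq]

/-- An element with a trivial path lies in the copy of `S`. -/
theorem mem_range_of_left_eq_one {g : D.W} (hg : g ∈ D.grp) {x : D.P} (h : g.left x = 1) :
    g ∈ D.io.range := by
  classical
  obtain ⟨l, s, hl, rfl⟩ := D.exists_word hg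
  have h1 := D.toWord_word hl s x
  rw [h, FreeGroup.toWord_one] at h1
  cases l with
  | nil => exact ⟨s, rfl⟩
  | cons hd l => simp [labs] at h1

end GData

end Cfsg.Agent.FusionGraph
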